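import Cfsg.Agent.Lib.TC.Iso

/-!
# Non-split double covers of `A₈`, abstractly
-/

set_option autoImplicit false

namespace Cfsg.Agent.Lib.McLCent

open Cfsg Subgroup Equiv

theorem card_A8 : Nat.card (alternatingGroup (Fin 8)) = 20160 := by
  have h := two_mul_card_alternatingGroup (α := Fin 8)
  rw [Fintype.card_perm, Fintype.card_fin] at h
  rw [Nat.card_eq_fintype_card]
  have h8 : Nat.factorial 8 = 40320 := by decide
  omega

instance simple_A8 : IsSimpleGroup (alternatingGroup (Fin 8)) :=
  alternatingGroup.isSimpleGroup (by simp)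

theorem noncomm_A8 : ∃ a b : alternatingGroup (Fin 8), a * b ≠ b * a := by
  refine ⟨⟨swap 0 1 * swap 0 2, ?_⟩, ⟨swap 0 1 * swap 0 3, ?_⟩, ?_⟩
  · rw [Equiv.Perm.mem_alternatingGroup, map_mul, Equiv.Perm.sign_swap (by decide), Equiv.Perm.sign_swap (by decide)]
    rfl
  · rw [Equiv.Perm.mem_alternatingGroup, map_mul, Equiv.Perm.sign_swap (by decide), Equiv.Perm.sign_swap (by decide)]
    rfl
  · intro h
    have h1 := congrArg (fun x : alternatingGroup (Fin 8) => (x : Perm (Fin 8)) 0) h
    revert h1
    decide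

theorem center_A8 : Subgroup.center (alternatingGroup (Fin 8)) = ⊥ := by
  rcases (Subgroup.Normal.eq_bot_or_eq_top (inferInstance : (Subgroup.center (alternatingGroup (Fin 8))).Normal)) with h | h
  · exact h
  · exfalso
    obtain ⟨a, b, hab⟩ := noncomm_A8
    have : a ∈ Subgroup.center (alternatingGroup (Fin 8)) := by rw [h]; trivial
    exact hab ((Subgroup.mem_center_iff.1 this b).symm)

/-- The criterion for the double cover. -/
theorem nsdc_of {M : Type*} [Group M] [Finite M] (f : M →* Perm (Fin 8))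
    (hr : f.range = alternatingGroup (Fin 8)) (hc : Nat.card M = 40320) (z : M) (hz : orderOf z = 2)
    (hzc : ∀ g, g * z = z * g) (hno : ∀ L : Subgroup M, L.index ≠ 2) :
    IsNonsplitDoubleCover M (alternatingGroup (Fin 8)) := by
  have hmem : ∀ x, f x ∈ alternatingGroup (Fin 8) := fun x => by
    rw [← hr]
    exact ⟨x, rfl⟩
  let f' : M →* alternatingGroup (Fin 8) := f.codRestrict _ hmem
  have hs : Function.Surjective f' := by
    rintro ⟨y, hy⟩
    rw [← hr] at hy
    obtain ⟨x, rfl⟩ := hy
    exact ⟨x, rfl⟩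
  have hk : Nat.card f'.ker = 2 := by
    have h1 := Subgroup.card_mul_index f'.ker
    rw [Subgroup.index_ker, MonoidHom.range_eq_top.2 hs, Subgroup.card_top, card_A8, hc] at h1
    omega
  have hzk : z ∈ f'.ker := by
    have h1 : f' z ∈ Subgroup.center (alternatingGroup (Fin 8)) := by
      rw [Subgroup.mem_center_iff]
      intro g
      obtain ⟨x, rfl⟩ := hs g
      rw [← map_mul, ← map_mul, hzc]
    rw [center_A8, Subgroup.mem_bot] at h1
    exact h1
  have heq : zpowers z = f'.ker := by
    apply Subgroup.eq_of_le_of_card_ge ((zpowers_le).2 hzk)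
    rw [hk, Nat.card_zpowers, hz]
  haveI hn : (zpowers z).Normal := by
    rw [heq]
    infer_instance
  exact Cfsg.Agent.Lib.TC.Iso.isNonsplitDoubleCover_of_data z hz hzc noncomm_A8
    ((QuotientGroup.quotientMulEquivOfEq heq).trans (QuotientGroup.quotientKerEquivOfSurjective f' hs)).symm hno

/-- A group generated by elements of odd order has no subgroup of index two. -/
theorem index_ne_two_of_odd {M : Type*} [Group M] {ι : Type*} (y : ι → M) (k : ι → ℕ) (hk : ∀ i, Odd (k i))
    (hy : ∀ i, y i ^ k i = 1) (hgen : Subgroup.closure (Set.range y) = ⊤) (L : Subgroup M) : L.index ≠ 2 := by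
  intro h
  have hL : ∀ i, y i ∈ L := by
    intro i
    obtain ⟨r, hr⟩ := hk i
    have hsq := Subgroup.sq_mem_of_index_two h (y i)
    have h1 : y i = (y i ^ 2) ^ (r + 1) * (y i ^ k i)⁻¹ := by
      rw [hr, ← pow_mul]
      have : 2 * (r + 1) = (2 * r + 1) + 1 := by ring
      rw [this, pow_succ]
      group
    rw [h1, hy i, inv_one, mul_one]
    exact L.pow_mem hsq _
  have htop : L = ⊤ := by
    rw [eq_top_iff, ← hgen, Subgroup.closure_le]
    rintro _ ⟨i, rfl⟩
    exact hL i
  rw [htop, Subgroup.index_top] at h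
  omega

end Cfsg.Agent.Lib.McLCent
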