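import Cfsg.Agent.Lib.McLCent.Main

/-!
# The centraliser of an involution of `McL`
-/

set_option autoImplicit false
set_option maxRecDepth 100000

namespace Cfsg.Agent.Lib.McLCent

open Cfsg Subgroup
open _root_.Cfsg.Agent.Lib.PermComp
open _root_.Cfsg.Agent.Lib.PermComp.Core
open Cfsg.Agent.Lib.McLCent.Data Cfsg.Agent.Lib.LeechP.McL Cfsg.Agent.Lib.McLFus
  Cfsg.Agent.Lib.McLFus.Data Cfsg.Agent.Lib.Cores Cfsg.Agent.Lib.PermComp.OutP
  Cfsg.Agent.Lib.Schur.CoverCert

local notation "RR" => Rep 9 511 (Equiv.refl (Fin 275))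
local notation "R8" => Rep 9 511 (Equiv.refl (Fin 8))
local notation "QQ" => Equiv.Perm (Fin 275)
local notation "Q8" => Equiv.Perm (Fin 8)

/-- Codes of the generators. -/
def cx : Fin 2 → ℕ := ![c_x0, c_x1]
/-- Codes of the generators on 8 points. -/
def cb : Fin 2 → ℕ := ![c_b0, c_b1]
/-- Codes of the inverses of the generators on 8 points. -/
def cbi : Fin 2 → ℕ := ![c_b0i, c_b1i]
/-- Codes of the pairs. -/
def cd : Fin 2 → ℕ := ![c_d0, c_d1]
/-- Orders of the generators. -/
def ck : Fin 2 → ℕ := ![c_k0, c_k1]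
/-- Words of the generators. -/
noncomputable def wx : Fin 2 → List ℕ := ![c_wx.getD 0 [], c_wx.getD 1 []]

theorem chk_a : checkAll 275 9 511 a_L a_maskL a_idc a_T a_prog a_levels = true := by decide +kernel
theorem ord_a : orderC a_levels = 40320 := by decide +kernel
theorem chk_b : checkAll 8 9 511 b_L b_maskL b_idc b_T b_prog b_levels = true := by decide +kernel
theorem ord_b : orderC b_levels = 20160 := by decide +kernel
theorem chk_p : checkAll 283 9 511 p_L p_maskL p_idc p_T p_prog p_levels = true := by decide +kernel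
theorem ord_p : orderC p_levels = 40320 := by decide +kernel

theorem a_T_eq : a_T = List.ofFn cx := by decide +kernel
theorem b_T_eq : b_T = List.ofFn cb := by decide +kernel
theorem p_T_eq : p_T = List.ofFn cd := by decide +kernel

theorem chk_wx : ∀ i, wc (wx i) = cx i := by decide +kernel
theorem chk_wxv : ∀ i, (wx i).all (fun a => Nat.blt a 4) = true := by decide +kernel
theorem chk_good : ∀ i, goodPair 8 9 511 (cb i) (cbi i) = true := by decide +kernel

theorem ex_x (i : Fin 2) : ∃ g ∈ PP, RR (cx i) g := by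
  rw [← chk_wx]
  exact wc_rep _ (chk_wxv i)

/-- The generators. -/
noncomputable def xx (i : Fin 2) : QQ := Classical.choose (ex_x i)
theorem xx_mem (i : Fin 2) : xx i ∈ PP := (Classical.choose_spec (ex_x i)).1
theorem xx_rep (i : Fin 2) : RR (cx i) (xx i) := (Classical.choose_spec (ex_x i)).2

/-- The generators on 8 points. -/
noncomputable def bb (i : Fin 2) : Q8 := Classical.choose (exists_rep (Equiv.refl (Fin 8)) (chk_good i))
theorem bb_rep (i : Fin 2) : R8 (cb i) (bb i) := Classical.choose_spec (exists_rep (Equiv.refl (Fin 8)) (chk_good i))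

theorem card_x : Nat.card (famCl xx) = 40320 := by
  rw [card_famCl_of_check (e := Equiv.refl (Fin 275)) xx cx xx_rep (by rw [← a_T_eq]; exact chk_a), ord_a]

theorem card_b : Nat.card (famCl bb) = 20160 := by
  rw [card_famCl_of_check (e := Equiv.refl (Fin 8)) bb cb bb_rep (by rw [← b_T_eq]; exact chk_b), ord_b]

theorem chk_d1 : allL (fun i => allL (fun j => Nat.beq (app 9 511 (cd i) j) (app 9 511 (cx i) j)) (List.range 275))
    [0, 1] = true := by decide +kernel

theorem chk_d2 : allL (fun i => allL (fun j => Nat.beq (app 9 511 (cd i) (275 + j)) (275 + app 9 511 (cb i) j)) (List.range 8))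
    [0, 1] = true := by decide +kernel

theorem fin2_mem (i : Fin 2) : i ∈ [(0 : Fin 2), 1] := by
  fin_cases i <;> simp

theorem card_p : Nat.card (pairCl xx bb) = 40320 := by
  rw [card_pairCl_of_check (e1 := Equiv.refl (Fin 275)) (e2 := Equiv.refl (Fin 8)) xx bb cd cx cb (w := 9) (mask := 511)
    xx_rep bb_rep
    (fun i j hj => Nat.eq_of_beq_eq_true ((allL_eq_true _ _).1 ((allL_eq_true _ _).1 chk_d1 i (fin2_mem i)) j
      (List.mem_range.2 hj)))
    (fun i j hj => Nat.eq_of_beq_eq_true ((allL_eq_true _ _).1 ((allL_eq_true _ _).1 chk_d2 i (fin2_mem i)) j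
      (List.mem_range.2 hj)))
    (by rw [← p_T_eq]; exact chk_p), ord_p]

theorem chk_comm : ∀ i, Nat.beq (comp 275 9 511 (cx i) zc) (comp 275 9 511 zc (cx i)) = true := by decide +kernel

theorem xx_comm (i : Fin 2) : xx i * Z0 = Z0 * xx i := by
  have h1 := (xx_rep i).comp hm9 Z0_rep
  rw [Nat.eq_of_beq_eq_true (chk_comm i)] at h1
  exact h1.unique (Z0_rep.comp hm9 (xx_rep i))

theorem fam_le : famCl xx ≤ PP ⊓ centralizer ({Z0} : Set QQ) := by
  apply (Subgroup.closure_le _).2
  rintro _ ⟨i, rfl⟩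
  exact ⟨xx_mem i, mem_centralizer_singleton_iff.2 (xx_comm i)⟩

theorem fam_eq : famCl xx = PP ⊓ centralizer ({Z0} : Set QQ) :=
  Subgroup.eq_of_le_of_card_ge fam_le (by rw [card_x]; exact card_cent_ub)

theorem pairFst_bij : Function.Bijective (pairFst xx bb) :=
  (pairFst_surj xx bb).bijective_of_nat_card_le (by rw [card_p, card_x])

/-- The map to the permutations of 8 points. -/
noncomputable def ff : famCl xx →* Q8 :=
  (famCl bb).subtype.comp ((pairSnd xx bb).comp (MulEquiv.ofBijective (pairFst xx bb) pairFst_bij).symm.toMonoidHom)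

theorem ff_range : ff.range = famCl bb := by
  apply le_antisymm
  · rintro _ ⟨y, rfl⟩
    exact ((pairSnd xx bb) _).2
  · intro y hy
    obtain ⟨p, hp⟩ := pairSnd_surj xx bb ⟨y, hy⟩
    refine ⟨pairFst xx bb p, ?_⟩
    have h1 : (MulEquiv.ofBijective (pairFst xx bb) pairFst_bij).symm (pairFst xx bb p) = p :=
      (MulEquiv.ofBijective (pairFst xx bb) pairFst_bij).symm_apply_apply p
    show ((pairSnd xx bb ((MulEquiv.ofBijective (pairFst xx bb) pairFst_bij).symm (pairFst xx bb p))) : Q8) = y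
    rw [h1, hp]

theorem chk_kodd : ∀ i, Odd (ck i) := by
  intro i
  rw [Nat.odd_iff]
  revert i
  decide +kernel

theorem chk_xpow : ∀ i, Nat.beq (powC 275 9 511 idc (cx i) (ck i)) idc = true := by decide +kernel

theorem chk_bpow : ∀ i, Nat.beq (powC 8 9 511 b_idc (cb i) (ck i)) b_idc = true := by decide +kernel

theorem xx_pow (i : Fin 2) : xx i ^ ck i = 1 :=
  (Rep_pow hm9 hid9 (xx_rep i) (ck i)).eq_one hid9 (Nat.eq_of_beq_eq_true (chk_xpow i))

theorem hid_b : ∀ i < 8, app 9 511 b_idc i = i :=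
  (main_of_checkAll (w := 9) (mask := 511) (e := Equiv.refl (Fin 8)) (T := b_T) (fun c hc => by
    rw [b_T_eq] at hc
    obtain ⟨i, rfl⟩ := (List.mem_ofFn' cb c).1 hc
    exact ⟨_, bb_rep i⟩) chk_b).2.1

theorem bb_pow (i : Fin 2) : bb i ^ ck i = 1 :=
  (Rep_pow hm9 hid_b (bb_rep i) (ck i)).eq_one hid_b (Nat.eq_of_beq_eq_true (chk_bpow i))

theorem bb_even (i : Fin 2) : bb i ∈ alternatingGroup (Fin 8) := by
  rw [Equiv.Perm.mem_alternatingGroup]
  have h1 : (Equiv.Perm.sign (bb i)) ^ ck i = 1 := by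
    rw [← map_pow, bb_pow, map_one]
  rcases Int.units_eq_one_or (Equiv.Perm.sign (bb i)) with h | h
  · exact h
  · rw [h, (chk_kodd i).neg_one_pow] at h1
    exact absurd h1 (by decide)

theorem fam_b : famCl bb = alternatingGroup (Fin 8) := by
  apply Subgroup.eq_of_le_of_card_ge
  · apply (Subgroup.closure_le _).2
    rintro _ ⟨i, rfl⟩
    exact bb_even i
  · rw [card_b, card_A8]

theorem Z0_order : orderOf Z0 = 2 := by
  have h2 : comp 275 9 511 zc zc = idc := by decide +kernel
  have hm : Nat.beq (app 9 511 zc 1) 1 = false := by decide +kernel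
  have := Fact.mk Nat.prime_two
  apply orderOf_eq_prime
  · rw [pow_two]
    exact (Z0_rep.comp hm9 Z0_rep).eq_one hid9 h2
  · intro h
    have h3 := rep_apply Z0_rep ⟨1, by norm_num⟩
    rw [h] at h3
    have h4 : app 9 511 zc 1 = 1 := h3
    rw [h4] at hm
    exact Bool.noConfusion hm

theorem Z0_famCl : Z0 ∈ famCl xx := by
  rw [fam_eq]
  exact ⟨Z0_mem, mem_centralizer_singleton_iff.2 rfl⟩

/-- The double cover, for the subgroup generated by the generators. -/
theorem nsdc_fam : IsNonsplitDoubleCover (famCl xx) (alternatingGroup (Fin 8)) := by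
  refine nsdc_of ff (by rw [ff_range, fam_b]) card_x ⟨Z0, Z0_famCl⟩ (by
    rw [Subgroup.orderOf_mk, Z0_order]) ?_ ?_
  · rintro ⟨g, hg⟩
    apply Subtype.ext
    rw [fam_eq] at hg
    exact mem_centralizer_singleton_iff.1 hg.2
  · refine index_ne_two_of_odd (fun i => (⟨xx i, Subgroup.subset_closure ⟨i, rfl⟩⟩ : famCl xx)) ck chk_kodd
      (fun i => Subtype.ext (xx_pow i)) ?_
    have h := Subgroup.closure_closure_coe_preimage (k := Set.range xx)
    rw [eq_top_iff]
    refine le_trans (le_of_eq h.symm) ?_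
    apply Subgroup.closure_mono
    rintro ⟨g, hg⟩ ⟨i, hi⟩
    exact ⟨i, Subtype.ext hi⟩

/-- The statement. -/
theorem final : (∀ x y : Spor.McL, orderOf x = 2 → orderOf y = 2 → IsConj x y) ∧
    ∃ t : Spor.McL, orderOf t = 2 ∧
      IsNonsplitDoubleCover (Subgroup.centralizer ({t} : Set Spor.McL)) (alternatingGroup (Fin 8)) := by
  obtain ⟨e⟩ := iso_PP
  have hfin : Finite Spor.McL := Finite.of_equiv _ e.symm.toEquiv
  refine ⟨fun x y hx hy => ?_, e.symm ⟨Z0, Z0_mem⟩, ?_, ?_⟩
  · have h1 := invol_PP (e x) (by rw [MulEquiv.orderOf_eq]; exact hx)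
    have h2 := invol_PP (e y) (by rw [MulEquiv.orderOf_eq]; exact hy)
    have h3 := h1.trans h2.symm
    have h4 := e.symm.toMonoidHom.map_isConj h3
    simpa using h4
  · rw [MulEquiv.orderOf_eq, Subgroup.orderOf_mk, Z0_order]
  · have e1 : e (e.symm ⟨Z0, Z0_mem⟩) = ⟨Z0, Z0_mem⟩ := e.apply_symm_apply _
    let Φ : Subgroup.centralizer ({e.symm ⟨Z0, Z0_mem⟩} : Set Spor.McL) ≃* famCl xx :=
      (centCongr e (e.symm ⟨Z0, Z0_mem⟩)).trans ((MulEquiv.subgroupCongr (by rw [e1])).trans
        ((centEquiv PP Z0_mem).trans (MulEquiv.subgroupCongr fam_eq.symm)))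
    exact Cfsg.Agent.Lib.TC.Tra.nsdc_congr Φ.symm nsdc_fam

end Cfsg.Agent.Lib.McLCent
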