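import Cfsg.Agent.Lib.McLCent.Words

/-!
# The keys of the conjugates increase, generated by a script.
-/

set_option autoImplicit false
set_option maxRecDepth 100000

namespace Cfsg.Agent.Lib.McLCent

open Cfsg.Agent.Lib.McLCent.Data

theorem inc0 : incK (orb0.map (decF 16)) 0 2985061837955 = true := by
  decide +kernel

theorem inc1 : incK (orb1.map (decF 16)) 2985061837955 5169961520663 = true := by
  decide +kernel

theorem inc2 : incK (orb2.map (decF 16)) 5169961520663 8048954905282 = true := by
  decide +kernel

theorem inc3 : incK (orb3.map (decF 16)) 8048954905282 10724453427237 = true := by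
  decide +kernel

theorem inc4 : incK (orb4.map (decF 16)) 10724453427237 12923431420981 = true := by
  decide +kernel

theorem inc5 : incK (orb5.map (decF 16)) 12923431420981 13146252683486 = true := by
  decide +kernel

theorem inc6 : incK (orb6.map (decF 16)) 13146252683486 14846897490072 = true := by
  decide +kernel

theorem inc7 : incK (orb7.map (decF 16)) 14846897490072 16974007284490 = true := by
  decide +kernel

theorem inc8 : incK (orb8.map (decF 16)) 16974007284490 18846867336411 = true := by
  decide +kernel

theorem chk_inc : incK orbW 0 18846867336411 = true := by
  unfold orbW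
  simp only [List.map_append]
  exact incK_append _ _ (incK_append _ _ (incK_append _ _ (incK_append _ _ (incK_append _ _ (incK_append _ _ (incK_append _ _ (incK_append _ _ (inc0) inc1) inc2) inc3) inc4) inc5) inc6) inc7) inc8

end Cfsg.Agent.Lib.McLCent
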