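import Cfsg.Agent.Lib.McLCent.Inc
import Cfsg.Agent.Lib.McLCent.Abs
import Cfsg.Agent.Lib.TC.Tra

/-!
# Involutions of `McL` and their centralisers
-/

set_option autoImplicit false
set_option maxRecDepth 100000

namespace Cfsg.Agent.Lib.McLCent

open Cfsg Subgroup
open _root_.Cfsg.Agent.Lib.PermComp
open _root_.Cfsg.Agent.Lib.PermComp.Core
open Cfsg.Agent.Lib.McLCent.Data Cfsg.Agent.Lib.LeechP.McL Cfsg.Agent.Lib.McLFus
  Cfsg.Agent.Lib.McLFus.Data Cfsg.Agent.Lib.Cores Cfsg.Agent.Lib.PermComp.OutP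
  Cfsg.Agent.Lib.Schur.CoverCert Cfsg.Agent.Lib.FusionSimple2.Codes

local notation "RR" => Rep 9 511 (Equiv.refl (Fin 275))
local notation "QQ" => Equiv.Perm (Fin 275)
local notation "EV" => evW 9 511 T4

/-! ### The conjugates -/

/-- The element of a word. -/
noncomputable def gW (u : List ℕ) : QQ :=
  if h : u.all (fun a => Nat.blt a 4) = true then Classical.choose (word_elt u h) else 1

theorem gW_mem (u : List ℕ) : gW u ∈ PP := by
  unfold gW
  split
  · next h => exact (Classical.choose_spec (word_elt u h)).1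
  · exact one_mem _

theorem cjv_spec (u : List ℕ) (hu : u.all (fun a => Nat.blt a 4) = true) (p : Fin 275) :
    cjv u p = (gW u * Z0 * (gW u)⁻¹) p := by
  have h0 : gW u = Classical.choose (word_elt u hu) := by
    unfold gW
    rw [dif_pos hu]
  obtain ⟨-, h1, h2⟩ := Classical.choose_spec (word_elt u hu)
  rw [← h0] at h1 h2
  unfold cjv
  rw [h2 p, rep_apply Z0_rep, h1]
  rfl

theorem keyW_eq {u v : List ℕ} (hu : u.all (fun a => Nat.blt a 4) = true)
    (hv : v.all (fun a => Nat.blt a 4) = true)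
    (h : gW u * Z0 * (gW u)⁻¹ = gW v * Z0 * (gW v)⁻¹) : keyW u = keyW v := by
  have hlt : ∀ p ∈ Cfsg.Agent.Lib.McLCent.Data.kpts, p < 275 := by decide +kernel
  unfold keyW
  generalize Cfsg.Agent.Lib.McLCent.Data.kpts = l at hlt
  induction l with
  | nil => rfl
  | cons p l ih =>
    simp only [List.foldr_cons]
    rw [ih (fun q hq => hlt q (List.mem_cons_of_mem _ hq))]
    have hp := hlt p List.mem_cons_self
    have h1 := cjv_spec u hu ⟨p, hp⟩
    have h2 := cjv_spec v hv ⟨p, hp⟩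
    rw [h] at h1
    have h3 : cjv u p = cjv v p := h1.trans h2.symm
    rw [h3]

/-- The upper bound for the centraliser. -/
theorem card_cent_ub : Nat.card (PP ⊓ centralizer ({Z0} : Set QQ) : Subgroup QQ) ≤ 40320 := by
  have hnd : (orbW.map keyW).Pairwise (· < ·) := (incK_spec _ _ _ chk_inc).1
  have hnd' : (orbW.map keyW).Nodup := hnd.imp (fun h => Nat.ne_of_lt h)
  have hval : ∀ u ∈ orbW, u.all (fun a => Nat.blt a 4) = true := fun u hu =>
    List.all_eq_true.1 chk_orbW u hu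
  refine card_cent_le (H := PP) (t := Z0) Z0_mem (L := 22275) (c := 40320) (by rw [card_PP]) (by norm_num)
    (fun i => gW (orbW.getD i []) * Z0 * (gW (orbW.getD i []))⁻¹)
    (fun i _ => ⟨_, gW_mem _, rfl⟩) ?_
  intro i hi j hj hij
  have hi' : i < orbW.length := by rw [chk_len]; exact hi
  have hj' : j < orbW.length := by rw [chk_len]; exact hj
  rw [List.getD_eq_getElem _ _ hi', List.getD_eq_getElem _ _ hj'] at hij
  have hk := keyW_eq (hval _ (List.getElem_mem hi')) (hval _ (List.getElem_mem hj')) hij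
  have hi2 : i < (orbW.map keyW).length := by simpa using hi'
  have hj2 : j < (orbW.map keyW).length := by simpa using hj'
  refine (hnd'.getElem_inj_iff (hi := hi2) (hj := hj2)).1 ?_
  simpa using hk

/-! ### All involutions are conjugate -/

/-- The involutions of the Sylow subgroup. -/
noncomputable def I0 : List ℕ := conjI.map Prod.fst

theorem chk_conjI : allL (fun e => ifB (wOK e.2) (Nat.beq (cjc e.2 zc) e.1)) conjI = true := by
  decide +kernel

theorem chk_invs : allL (fun c => orC (Nat.beq c idc) (orC (anyL (fun p => neB (app 9 511 c (app 9 511 c p)) p) rng)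
    (memN c I0))) L0 = true := by
  decide +kernel

theorem invol_S0 {x : QQ} (hx : x ∈ S0) (h1 : x ≠ 1) (h2 : x * x = 1) : ∃ g ∈ PP, x = g * Z0 * g⁻¹ := by
  obtain ⟨c, hc, hr⟩ := L2 x hx
  have h := (allL_eq_true _ _).1 chk_invs c hc
  simp only [orC_eq_true] at h
  rcases h with h | h | h
  · exact absurd (hr.eq_one hid9 (Nat.eq_of_beq_eq_true h)) h1
  · exfalso
    obtain ⟨p, hp, hne⟩ := (anyL_eq_true _ _).1 h
    apply neB_spec hne
    have hp' := mem_rng.1 hp
    have h3 := rep_apply hr ⟨p, hp'⟩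
    have h4 := rep_apply hr (x ⟨p, hp'⟩)
    have h5 : x (x ⟨p, hp'⟩) = ⟨p, hp'⟩ := by
      have := congrArg (fun f : QQ => f ⟨p, hp'⟩) h2
      simpa using this
    simp only at h3
    rw [h3, h4, h5]
  · rw [memN_eq_true] at h
    obtain ⟨e, he, rfl⟩ := List.mem_map.1 h
    have h3 := (ifB_eq_true _ _).1 ((allL_eq_true _ _).1 chk_conjI e he)
    obtain ⟨g, hg, -, hr'⟩ := cj_rep h3.1 Z0_rep
    rw [Nat.eq_of_beq_eq_true h3.2] at hr'
    exact ⟨g, hg, hr.unique hr'⟩

/-- Every involution of the group is conjugate into the Sylow subgroup. -/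
theorem invol_PP (x : PP) (hx : orderOf x = 2) : IsConj x ⟨Z0, Z0_mem⟩ := by
  classical
  let ι : PP →* QQ := PP.subtype
  let U : Subgroup PP := S0.comap ι
  have hinj : Function.Injective ι := Subtype.val_injective
  have hmap : U.map ι = S0 := by
    ext y
    constructor
    · rintro ⟨a, ha, rfl⟩
      exact ha
    · intro hy
      exact ⟨⟨y, S0_le hy⟩, hy, rfl⟩
  have hfac : (Nat.card PP).factorization 2 = 7 := by
    rw [card_PP]
    have : (898128000 : ℕ) = 2 ^ 7 * 7016625 := by norm_num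
    rw [this, Nat.factorization_mul (by positivity) (by norm_num), Nat.Prime.factorization_pow Nat.prime_two]
    have h7 : (7016625 : ℕ).factorization 2 = 0 := Nat.factorization_eq_zero_of_not_dvd (by norm_num)
    simp [h7]
  have hU : Nat.card U = 2 ^ (Nat.card PP).factorization 2 := by
    rw [hfac, ← card_S0, ← hmap, Subgroup.card_map_of_injective hinj]
  have hfin : Finite PP := Nat.finite_of_card_ne_zero (by rw [card_PP]; norm_num)
  let P : Sylow 2 PP := Sylow.ofCard U hU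
  have hP : ∀ y, y ∈ (P : Subgroup PP) ↔ (y : QQ) ∈ S0 := by
    intro y
    rw [Sylow.coe_ofCard, Subgroup.mem_comap]
    rfl
  have hpg : IsPGroup 2 (zpowers x) := by
    apply IsPGroup.of_card (n := 1)
    rw [Nat.card_zpowers, hx, pow_one]
  obtain ⟨Q, hQ⟩ := hpg.exists_le_sylow
  obtain ⟨g, hg⟩ := MulAction.exists_smul_eq PP Q P
  have hxQ : x ∈ (Q : Subgroup PP) := hQ (mem_zpowers x)
  have hgx : g * x * g⁻¹ ∈ (P : Subgroup PP) := by
    rw [← hg, Sylow.coe_subgroup_smul]
    exact Subgroup.smul_mem_pointwise_smul x (MulAut.conj g) _ hxQ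
  rw [hP] at hgx
  have hne : ((g * x * g⁻¹ : PP) : QQ) ≠ 1 := by
    intro h
    have h3 : g * x * g⁻¹ = 1 := Subtype.ext h
    have h4 : x = 1 := by
      have := congrArg (fun y => g⁻¹ * y * g) h3
      simpa [mul_assoc] using this
    rw [h4, orderOf_one] at hx
    omega
  have hsq : ((g * x * g⁻¹ : PP) : QQ) * ((g * x * g⁻¹ : PP) : QQ) = 1 := by
    have h5 : x * x = 1 := by
      rw [← pow_two, ← hx, pow_orderOf_eq_one]
    have h6 : (g * x * g⁻¹) * (g * x * g⁻¹) = 1 := by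
      calc (g * x * g⁻¹) * (g * x * g⁻¹) = g * (x * x) * g⁻¹ := by group
        _ = 1 := by rw [h5]; group
    exact congrArg Subtype.val h6
  obtain ⟨a, ha, hae⟩ := invol_S0 hgx hne hsq
  have h7 : g * x * g⁻¹ = (⟨a, ha⟩ : PP) * ⟨Z0, Z0_mem⟩ * (⟨a, ha⟩ : PP)⁻¹ := Subtype.ext hae
  rw [isConj_iff]
  refine ⟨(⟨a, ha⟩ : PP)⁻¹ * g, ?_⟩
  calc ((⟨a, ha⟩ : PP)⁻¹ * g) * x * ((⟨a, ha⟩ : PP)⁻¹ * g)⁻¹
      = (⟨a, ha⟩ : PP)⁻¹ * (g * x * g⁻¹) * (⟨a, ha⟩ : PP) := by group
    _ = ⟨Z0, Z0_mem⟩ := by rw [h7]; group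

end Cfsg.Agent.Lib.McLCent
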