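import Cfsg.Agent.Lib.McLCent.Data
import Cfsg.Agent.Lib.McLCent.Orb
import Cfsg.Agent.Lib.McLFus.Main
import Cfsg.Agent.Lib.Cores.Words
import Cfsg.Agent.Lib.PermComp.OutP.CentIso

/-!
# Conjugates of an involution of `McL`, as words

The conjugates are told apart on five points, so that no product of permutations is computed.
-/

set_option autoImplicit false
set_option maxRecDepth 100000

namespace Cfsg.Agent.Lib.McLCent

open Cfsg Subgroup
open _root_.Cfsg.Agent.Lib.PermComp
open _root_.Cfsg.Agent.Lib.PermComp.Core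
open Cfsg.Agent.Lib.McLCent.Data Cfsg.Agent.Lib.LeechP.McL Cfsg.Agent.Lib.McLFus
  Cfsg.Agent.Lib.McLFus.Data Cfsg.Agent.Lib.Cores

local notation "RR" => Rep 9 511 (Equiv.refl (Fin 275))
local notation "QQ" => Equiv.Perm (Fin 275)
local notation "EV" => evW 9 511 T4

theorem ev_nil (p : ℕ) : EV [] p = p := rfl

theorem ev_append (l l' : List ℕ) (p : ℕ) : EV (l ++ l') p = EV l (EV l' p) := by
  induction l with
  | nil => rfl
  | cons a l ih =>
    rw [List.cons_append, evW_cons, evW_cons, ih]

theorem rep_apply {c : ℕ} {g : QQ} (h : RR c g) (x : Fin 275) : app 9 511 c x = g x := h x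

/-- A letter and its inverse. -/
theorem letter_pair (a : ℕ) (ha : a < 4) :
    ∃ g ∈ PP, RR (nthN T4 a) g ∧ RR (nthN T4 ((a + 2) % 4)) g⁻¹ := by
  obtain ⟨x, hx, hr⟩ := rep_c0
  obtain ⟨y, hy, hs⟩ := rep_c1
  have hr' : RR d0 x⁻¹ := hr.inv hm9 hid9 chk_d0
  have hs' : RR d1 y⁻¹ := hs.inv hm9 hid9 chk_d1
  interval_cases a
  · exact ⟨x, hx, hr, hr'⟩
  · exact ⟨y, hy, hs, hs'⟩
  · exact ⟨x⁻¹, PP.inv_mem hx, hr', by rw [inv_inv]; exact hr⟩
  · exact ⟨y⁻¹, PP.inv_mem hy, hs', by rw [inv_inv]; exact hs⟩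

/-- The element of a word, evaluated at points, with its inverse. -/
theorem word_elt (u : List ℕ) (hu : u.all (fun a => Nat.blt a 4) = true) :
    ∃ g ∈ PP, (∀ a : Fin 275, EV u a = g a) ∧ (∀ a : Fin 275, EV (invW u) a = g⁻¹ a) := by
  induction u with
  | nil => exact ⟨1, one_mem _, fun a => rfl, fun a => rfl⟩
  | cons a u ih =>
    simp only [List.all_cons, Bool.and_eq_true] at hu
    obtain ⟨g, hg, h1, h2⟩ := ih hu.2
    obtain ⟨l, hl, hr, hri⟩ := letter_pair a (Nat.le_of_ble_eq_true hu.1)
    refine ⟨l * g, mul_mem hl hg, fun p => ?_, fun p => ?_⟩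
    · rw [evW_cons, h1 p, rep_apply hr]
      rfl
    · have e1 : invW (a :: u) = invW u ++ [(a + 2) % 4] := by
        simp [invW]
      have e2 : EV [(a + 2) % 4] p = (l⁻¹ p : Fin 275) := by
        rw [evW_cons, ev_nil, rep_apply hri]
      rw [e1, ev_append, e2, h2, mul_inv_rev]
      rfl

/-- The value of the conjugate of `Z0` by a word. -/
noncomputable def cjv (u : List ℕ) (p : ℕ) : ℕ := EV u (app 9 511 zc (EV (invW u) p))

/-- The key of a conjugate. -/
noncomputable def keyW (u : List ℕ) : ℕ :=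
  List.foldr (fun p acc => Nat.add (Nat.mul acc 512) (cjv u p)) 0 Cfsg.Agent.Lib.McLCent.Data.kpts

/-- Checks that the keys increase and stay below a bound. -/
noncomputable def incK (l : List (List ℕ)) : ℕ → ℕ → Bool :=
  List.rec (motive := fun _ => ℕ → ℕ → Bool) (fun prev bd => Nat.ble prev bd)
    (fun u _ ih prev bd => force (keyW u) fun k => ifB (Nat.blt prev k) (ih k bd)) l

theorem incK_cons (u : List ℕ) (l : List (List ℕ)) (prev bd : ℕ) :
    incK (u :: l) prev bd = ifB (Nat.blt prev (keyW u)) (incK l (keyW u) bd) := by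
  show force (keyW u) (fun k => ifB (Nat.blt prev k) (incK l k bd)) = _
  rw [force_eq]

theorem incK_append (l l' : List (List ℕ)) {a b c : ℕ} (h : incK l a b = true) (h' : incK l' b c = true) :
    incK (l ++ l') a c = true := by
  induction l generalizing a with
  | nil =>
    have hab : a ≤ b := Nat.le_of_ble_eq_true h
    rw [List.nil_append]
    have key : ∀ (l' : List (List ℕ)) (b : ℕ), a ≤ b → incK l' b c = true → incK l' a c = true := by
      intro l' b hab h'
      cases l' with
      | nil => exact Nat.ble_eq_true_of_le (hab.trans (Nat.le_of_ble_eq_true h'))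
      | cons u t =>
        rw [incK_cons, ifB_eq_true] at h' ⊢
        exact ⟨Nat.ble_eq_true_of_le (Nat.lt_of_le_of_lt hab (Nat.le_of_ble_eq_true h'.1)), h'.2⟩
    exact key l' b hab h'
  | cons u t ih =>
    rw [incK_cons, ifB_eq_true] at h
    rw [List.cons_append, incK_cons, ifB_eq_true]
    exact ⟨h.1, ih h.2⟩

theorem incK_spec (l : List (List ℕ)) (prev bd : ℕ) (h : incK l prev bd = true) :
    (l.map keyW).Pairwise (· < ·) ∧ ∀ k ∈ l.map keyW, prev < k := by
  induction l generalizing prev with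
  | nil => simp
  | cons u l ih =>
    rw [incK_cons, ifB_eq_true] at h
    obtain ⟨h1, h2⟩ := h
    obtain ⟨h3, h4⟩ := ih _ h2
    have hlt : prev < keyW u := Nat.le_of_ble_eq_true h1
    refine ⟨?_, ?_⟩
    · rw [List.map_cons, List.pairwise_cons]
      exact ⟨h4, h3⟩
    · intro k hk
      rw [List.map_cons, List.mem_cons] at hk
      rcases hk with rfl | hk
      · exact hlt
      · exact hlt.trans (h4 k hk)

theorem chk_orbW : orbW.all (fun u => u.all (fun a => Nat.blt a 4)) = true := by decide +kernel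

theorem chk_len : orbW.length = 22275 := by decide +kernel

end Cfsg.Agent.Lib.McLCent
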